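import Mathlib
import Cfsg.Agent.FixBN.AltSB
import Cfsg.Agent.StandardComponent.AltAut
/-!
An odd group acting nontrivially on `A_k`, centralised by an involution `x` and normalised by `C_{A_k}(x)`:
it meets `A_k` in a group containing a three-cycle.
-/

set_option autoImplicit false

open Equiv Equiv.Perm Subgroup

namespace Cfsg.Agent.H290.UnbA

section Act

variable {G : Type*} [Group G] {k : ℕ} {J : Subgroup G} (e : J ≃* alternatingGroup (Fin k))

/-- `s` describes the action of `g` on `J`. -/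
def Ac (g : G) (s : Perm (Fin k)) : Prop :=
  ∀ (j : J), ∃ h : g * j * g⁻¹ ∈ J, (e ⟨g * j * g⁻¹, h⟩ : Perm (Fin k)) = s * (e j : Perm (Fin k)) * s⁻¹

variable {e}

theorem exists_ac (hk : 7 ≤ k) {g : G} (hg : ∀ j, j ∈ J ↔ g * j * g⁻¹ ∈ J) : ∃ s, Ac e g s := by
  obtain ⟨m, rfl⟩ : ∃ m, k = m + 2 := ⟨k - 2, by omega⟩
  let a : MulAut J :=
    { toFun := fun j => ⟨g * j * g⁻¹, (hg j).1 j.2⟩
      invFun := fun j => ⟨g⁻¹ * j * g, (hg _).2 (by
        have : g * (g⁻¹ * (j : G) * g) * g⁻¹ = j := by group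
        rw [this]; exact j.2)⟩
      left_inv := fun j => Subtype.ext (by
        change g⁻¹ * (g * (j : G) * g⁻¹) * g = j
        group)
      right_inv := fun j => Subtype.ext (by
        change g * (g⁻¹ * (j : G) * g) * g⁻¹ = j
        group)
      map_mul' := fun j l => Subtype.ext (by
        change g * ((j : G) * l) * g⁻¹ = (g * j * g⁻¹) * (g * l * g⁻¹)
        group) }
  obtain ⟨s, hs⟩ := StandardComponent.AltAut.exists_conj (m := m) (by omega)
    ((e.symm.trans a).trans e)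
  refine ⟨s, fun j => ⟨(hg j).1 j.2, ?_⟩⟩
  have h1 := hs (e j)
  change ((e (a (e.symm (e j))) : alternatingGroup (Fin (m + 2))) : Perm (Fin (m + 2))) = _ at h1
  rw [e.symm_apply_apply] at h1
  exact h1

theorem Ac.unique (hk : 4 ≤ k) {g : G} {s t : Perm (Fin k)} (hs : Ac e g s) (ht : Ac e g t) : s = t := by
  obtain ⟨m, rfl⟩ : ∃ m, k = m + 2 := ⟨k - 2, by omega⟩
  have h : t⁻¹ * s = 1 := by
    apply StandardComponent.AltAut.eq_one_of_centralizes (m := m) (by omega)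
    intro x
    obtain ⟨h1, h2⟩ := hs (e.symm x)
    obtain ⟨h3, h4⟩ := ht (e.symm x)
    rw [e.apply_symm_apply] at h2 h4
    have h5 := h2.symm.trans h4
    calc t⁻¹ * s * (x : Perm (Fin (m + 2))) * (t⁻¹ * s)⁻¹ = t⁻¹ * (s * x * s⁻¹) * t := by group
      _ = t⁻¹ * (t * x * t⁻¹) * t := by rw [h5]
      _ = x := by group
  rw [inv_mul_eq_one] at h
  exact h.symm

theorem Ac.mul {g h : G} {s t : Perm (Fin k)} (hs : Ac e g s) (ht : Ac e h t) :
    Ac e (g * h) (s * t) := by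
  intro j
  obtain ⟨h1, h2⟩ := ht j
  obtain ⟨h3, h4⟩ := hs ⟨_, h1⟩
  have e1 : g * h * (j : G) * (g * h)⁻¹ = g * (h * j * h⁻¹) * g⁻¹ := by group
  have h5 : g * h * (j : G) * (g * h)⁻¹ ∈ J := by rw [e1]; exact h3
  refine ⟨h5, ?_⟩
  have h6 : (⟨_, h5⟩ : J) = ⟨_, h3⟩ := Subtype.ext e1
  rw [h6, h4, h2]
  group

theorem Ac.inv {g : G} {s : Perm (Fin k)} (hg : ∀ j, j ∈ J ↔ g * j * g⁻¹ ∈ J) (hs : Ac e g s) :
    Ac e g⁻¹ s⁻¹ := by
  intro j
  have h1 : g⁻¹ * (j : G) * g⁻¹⁻¹ ∈ J := by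
    rw [hg]
    have : g * (g⁻¹ * (j : G) * g⁻¹⁻¹) * g⁻¹ = j := by group
    rw [this]
    exact j.2
  refine ⟨h1, ?_⟩
  obtain ⟨h2, h3⟩ := hs ⟨_, h1⟩
  have h4 : (⟨_, h2⟩ : J) = j := Subtype.ext (by
    change g * (g⁻¹ * (j : G) * g⁻¹⁻¹) * g⁻¹ = j
    group)
  rw [h4] at h3
  rw [h3]
  group

theorem ac_self (j : J) : Ac e (j : G) (e j : Perm (Fin k)) := by
  intro l
  have h : (j : G) * l * (j : G)⁻¹ ∈ J := J.mul_mem (J.mul_mem j.2 l.2) (J.inv_mem j.2)
  refine ⟨h, ?_⟩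
  have : (⟨_, h⟩ : J) = j * l * j⁻¹ := rfl
  rw [this, map_mul, map_mul, map_inv]
  rfl

theorem ac_one : Ac e (1 : G) (1 : Perm (Fin k)) := by
  have := ac_self (e := e) (1 : J)
  simpa using this

end Act

/-- three points -/
theorem three_eq {α : Type*} [Fintype α] [DecidableEq α] {F : Finset α} (hF : F.card ≤ 3) {w : Perm α}
    (hw : ∃ j : ℕ, (w ^ 2) ^ j = w) (hsub : w.support ⊆ F) (hne : w ≠ 1) :
    w.IsThreeCycle ∧ w.support = F := by
  have h1 : w.support.card ≤ 3 := (Finset.card_le_card hsub).trans hF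
  have h2 : w.support.card ≠ 0 := by
    rw [Ne, Finset.card_eq_zero, support_eq_empty_iff]; exact hne
  have h3 : w.support.card ≠ 1 := w.card_support_ne_one
  have h4 : w.support.card ≠ 2 := by
    intro h
    rw [card_support_eq_two] at h
    apply hne
    obtain ⟨j, hj⟩ := hw
    obtain ⟨a, b, -, hab⟩ := h
    rw [← hj, hab, pow_two, swap_mul_self, one_pow]
  have h5 : w.support.card = 3 := by omega
  refine ⟨card_support_eq_three_iff.1 h5, Finset.eq_of_subset_of_card_le hsub (by omega)⟩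

/-- **The three-cycle.** -/
theorem three_mem {G : Type*} [Group G] [Finite G] {k : ℕ} (hk : 7 ≤ k) {J : Subgroup G}
    (e : J ≃* alternatingGroup (Fin k)) {x : G} (hx : x * x = 1)
    (hxJ : ∀ j, j ∈ J ↔ x * j * x⁻¹ ∈ J) {D : Subgroup G} (hD : Odd (Nat.card D))
    (hDx : ∀ d ∈ D, x * d = d * x) (hDJ : ∀ d ∈ D, ∀ j, j ∈ J ↔ d * j * d⁻¹ ∈ J)
    (hJD : ∀ j ∈ J, x * j = j * x → ∀ d ∈ D, j * d * j⁻¹ ∈ D)
    (hne : ∃ d ∈ D, ∃ j ∈ J, d * j ≠ j * d) :
    ∃ t ∈ J, t ∈ D ∧ t ≠ 1 ∧ t ^ 3 = 1 := by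
  classical
  obtain ⟨s, hs⟩ := exists_ac (e := e) hk hxJ
  have hss : s * s = 1 := by
    refine Ac.unique (e := e) (by omega) (hs.mul hs) ?_
    rw [hx]
    exact ac_one
  have hs2 : ∀ y, s (s y) = y := fun y => by
    rw [← Perm.mul_apply, hss, Perm.one_apply]
  -- the image of `D`
  let W : Subgroup (Perm (Fin k)) :=
    { carrier := {w | ∃ d ∈ D, Ac e d w}
      one_mem' := ⟨1, D.one_mem, ac_one⟩
      mul_mem' := by
        rintro a b ⟨d, hd, ha⟩ ⟨d', hd', hb⟩
        exact ⟨d * d', D.mul_mem hd hd', ha.mul hb⟩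
      inv_mem' := by
        rintro a ⟨d, hd, ha⟩
        exact ⟨d⁻¹, D.inv_mem hd, ha.inv (hDJ d hd)⟩ }
  have hWodd : ∀ w ∈ W, ∃ j : ℕ, (w ^ 2) ^ j = w := by
    rintro w ⟨d, hd, ha⟩
    obtain ⟨j, hj⟩ := FixBN.AltSB.exists_pow_of_odd hD hd
    have hpow : ∀ n : ℕ, Ac e (d ^ n) (w ^ n) := by
      intro n
      induction n with
      | zero => simpa using ac_one (e := e)
      | succ n ih => rw [pow_succ, pow_succ]; exact ih.mul ha
    refine ⟨j, Ac.unique (e := e) (g := d) (by omega) ?_ ha⟩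
    have := hpow (2 * j)
    rw [pow_mul, hj, pow_mul] at this
    exact this
  have hWc : ∀ w ∈ W, ∀ y, w (s y) = s (w y) := by
    rintro w ⟨d, hd, ha⟩ y
    have h1 : w * s = s * w := by
      refine Ac.unique (e := e) (g := d * x) (by omega) (ha.mul hs) ?_
      rw [← hDx d hd]
      exact hs.mul ha
    rw [← Perm.mul_apply, h1, Perm.mul_apply]
  have hcomm : ∀ u : Perm (Fin k), u ∈ alternatingGroup (Fin k) → (∀ y, u (s y) = s (u y)) →
      ∃ j : J, (e j : Perm (Fin k)) = u ∧ x * (j : G) = (j : G) * x := by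
    intro u hu hus
    refine ⟨e.symm ⟨u, hu⟩, by rw [e.apply_symm_apply], ?_⟩
    obtain ⟨h1, h2⟩ := hs (e.symm ⟨u, hu⟩)
    rw [e.apply_symm_apply] at h2
    have h3 : s * u * s⁻¹ = u := by
      have : s * u = u * s := Equiv.ext fun y => (hus y).symm
      rw [this, mul_inv_cancel_right]
    have h4 : e ⟨_, h1⟩ = e (e.symm ⟨u, hu⟩) := by
      rw [e.apply_symm_apply]
      exact Subtype.ext (h2.trans h3)
    have h5 := congrArg Subtype.val (e.injective h4)
    change x * ((e.symm ⟨u, hu⟩ : J) : G) * x⁻¹ = ((e.symm ⟨u, hu⟩ : J) : G) at h5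
    rw [mul_inv_eq_iff_eq_mul] at h5
    exact h5
  have hWn : ∀ w ∈ W, ∀ u ∈ alternatingGroup (Fin k), (∀ y, u (s y) = s (u y)) →
      u * w * u⁻¹ ∈ W := by
    rintro w ⟨d, hd, ha⟩ u hu hus
    obtain ⟨j, hj, hjx⟩ := hcomm u hu hus
    refine ⟨j * d * (j : G)⁻¹, hJD j j.2 hjx d hd, ?_⟩
    have h1 := ac_self (e := e) j
    rw [hj] at h1
    refine (h1.mul ha).mul (h1.inv fun l => ?_)
    constructor
    · intro hl; exact J.mul_mem (J.mul_mem j.2 hl) (J.inv_mem j.2)
    · intro hl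
      have := J.mul_mem (J.mul_mem (J.inv_mem j.2) hl) j.2
      have e2 : (j : G)⁻¹ * (j * l * (j : G)⁻¹) * j = l := by group
      rwa [e2] at this
  -- `W` is not trivial
  obtain ⟨d, hd, j0, hj0, hdj⟩ := hne
  obtain ⟨w, hw⟩ := exists_ac (e := e) hk (hDJ d hd)
  have hwW : w ∈ W := ⟨d, hd, hw⟩
  have hw1 : w ≠ 1 := by
    rintro rfl
    apply hdj
    obtain ⟨h1, h2⟩ := hw ⟨j0, hj0⟩
    rw [one_mul, inv_one, mul_one] at h2
    have h3 := congrArg Subtype.val (e.injective (Subtype.ext h2))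
    change d * j0 * d⁻¹ = j0 at h3
    rw [mul_inv_eq_iff_eq_mul] at h3
    exact h3
  have hmoved : ∀ a, s a ≠ a → w a = a := fun a ha =>
    FixBN.AltSB.fix_moved hs2 hWc hWodd hWn hwW ha
  set F : Finset (Fin k) := Finset.univ.filter fun a => s a = a with hF
  have hFc : F.card ≤ 3 := by
    by_contra hlt
    push Not at hlt
    apply hw1
    refine Equiv.ext fun a => ?_
    by_cases ha : s a = a
    · refine FixBN.AltSB.fix_fixed hWc hWodd hWn ?_ hwW ha
      rw [Nat.card_eq_fintype_card, Fintype.card_subtype]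
      exact hlt
    · exact hmoved a ha
  have hsupp : w.support ⊆ F := by
    intro a ha
    rw [hF, Finset.mem_filter]
    refine ⟨Finset.mem_univ _, ?_⟩
    by_contra h
    exact (mem_support.1 ha) (hmoved a h)
  obtain ⟨hw3, hwF⟩ := three_eq hFc (hWodd w hwW) hsupp hw1
  have hF3 : F.card = 3 := by rw [← hwF]; exact hw3.card_support
  -- a moved point
  obtain ⟨c, hc⟩ : ∃ c, s c ≠ c := by
    by_contra h
    push Not at h
    have : F = Finset.univ := Finset.eq_univ_iff_forall.2 fun a => by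
      rw [hF, Finset.mem_filter]; exact ⟨Finset.mem_univ _, h a⟩
    rw [this, Finset.card_univ, Fintype.card_fin] at hF3
    omega
  obtain ⟨a, ha⟩ := StandardComponent.AltAut.exists_ne hw3
  have hFix : ∀ b, w b ≠ b → s b = b := fun b hb => by
    have := hsupp (mem_support.2 hb)
    rw [hF, Finset.mem_filter] at this
    exact this.2
  have ha2 : w (w a) ≠ w a := fun h => ha (w.injective h)
  have hsa := hFix a ha
  have hswa := hFix (w a) ha2
  have hswwa := hFix (w (w a)) (fun h => ha2 (w.injective h))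
  have hne1 : w (w a) ≠ a := StandardComponent.AltAut.apply_two_ne hw3 ha
  have hca : a ≠ c := fun h => hc (h ▸ hsa)
  have hcwa : w a ≠ c := fun h => hc (h ▸ hswa)
  have hcwwa : w (w a) ≠ c := fun h => hc (h ▸ hswwa)
  have hsca : ∀ b, s b = b → b ≠ s c := fun b hb h => hc (s.injective (by rw [← h, hb, h]))
  obtain ⟨u, hu⟩ : ∃ u, u = swap a (w a) * swap c (s c) := ⟨_, rfl⟩
  have huA : u ∈ alternatingGroup (Fin k) := by
    rw [hu]
    exact mul_mem_alternatingGroup_of_isSwap ⟨_, _, ha.symm, rfl⟩ ⟨_, _, hc.symm, rfl⟩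
  have hus : ∀ y, u (s y) = s (u y) := by
    intro y
    rw [hu, Perm.mul_apply, Perm.mul_apply, FixBN.AltSB.comm_s hs2]
    have h1 : ∀ z, swap a (w a) (s z) = s (swap a (w a) z) := by
      intro z
      have h2 := Equiv.swap_apply_apply s a (w a)
      rw [hsa, hswa] at h2
      have h3 : swap a (w a) * s = s * swap a (w a) := by
        conv_lhs => rw [h2]
        group
      exact congrArg (fun f : Perm (Fin k) => f z) h3
    exact h1 _
  obtain ⟨j, hj, hjx⟩ := hcomm u huA hus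
  -- `t = [j, d]`
  obtain ⟨t, ht⟩ : ∃ t, t = (j : G) * d * (j : G)⁻¹ * d⁻¹ := ⟨_, rfl⟩
  have htJ : t ∈ J := by
    have h1 : d * (j : G)⁻¹ * d⁻¹ ∈ J := (hDJ d hd _).1 (J.inv_mem j.2)
    have h2 : t = j * (d * (j : G)⁻¹ * d⁻¹) := by rw [ht]; group
    rw [h2]
    exact J.mul_mem j.2 h1
  have hjJ : ∀ l, l ∈ J ↔ (j : G) * l * (j : G)⁻¹ ∈ J := by
    intro l
    constructor
    · intro hl; exact J.mul_mem (J.mul_mem j.2 hl) (J.inv_mem j.2)
    · intro hl
      have := J.mul_mem (J.mul_mem (J.inv_mem j.2) hl) j.2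
      have e2 : (j : G)⁻¹ * (j * l * (j : G)⁻¹) * j = l := by group
      rwa [e2] at this
  have het : (e ⟨t, htJ⟩ : Perm (Fin k)) = u * w * u⁻¹ * w⁻¹ := by
    refine Ac.unique (e := e) (g := t) (by omega) (ac_self ⟨t, htJ⟩) ?_
    have h1 := ac_self (e := e) j
    rw [hj] at h1
    rw [ht]
    exact ((h1.mul hw).mul (h1.inv hjJ)).mul (hw.inv (hDJ d hd))
  have huwa : u (w a) = a := by
    rw [hu, Perm.mul_apply, swap_apply_of_ne_of_ne hcwa (hsca _ hswa), swap_apply_right]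
  have huinv : u⁻¹ a = w a := by
    have : u⁻¹ (u (w a)) = w a := u.symm_apply_apply (w a)
    rwa [huwa] at this
  have huwwa : u (w (w a)) = w (w a) := by
    rw [hu, Perm.mul_apply, swap_apply_of_ne_of_ne hcwwa (hsca _ hswwa),
      swap_apply_of_ne_of_ne hne1 (fun h => ha (w.injective h))]
  have hvF : (u * w * u⁻¹).support = w.support := by
    rw [support_conj, hwF]
    refine Finset.eq_of_subset_of_card_le ?_ (by rw [Finset.card_map])
    intro b hb
    rw [Finset.mem_map] at hb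
    obtain ⟨b', hb', rfl⟩ := hb
    rw [hF, Finset.mem_filter] at hb' ⊢
    refine ⟨Finset.mem_univ _, ?_⟩
    change s (u b') = u b'
    rw [← hus, hb'.2]
  have hv3 : (u * w * u⁻¹).IsThreeCycle := by
    rw [← card_support_eq_three_iff, hvF]
    exact hw3.card_support
  have hvw : u * w * u⁻¹ = w⁻¹ := by
    rcases StandardComponent.AltAut.eq_or_of_support hw3 hv3 hvF.symm with h | h
    · exfalso
      have h1 := congrArg (fun f : Perm (Fin k) => f a) h
      change w a = u (w (u⁻¹ a)) at h1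
      rw [huinv, huwwa] at h1
      exact ha (w.injective h1).symm
    · exact h
  have hcube : w ^ 3 = 1 := StandardComponent.AltAut.cube_eq_one hw3
  refine ⟨t, htJ, ?_, ?_, ?_⟩
  · rw [ht]
    exact D.mul_mem (hJD j j.2 hjx d hd) (D.inv_mem hd)
  · rintro h1
    have h2 : e ⟨t, htJ⟩ = 1 := by
      have : (⟨t, htJ⟩ : J) = 1 := Subtype.ext h1
      rw [this, map_one]
    rw [h2, hvw] at het
    have h3 : w * w = 1 := by
      have : (w⁻¹ * w⁻¹)⁻¹ = 1 := by rw [← het]; simp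
      simpa using this
    apply hne1
    have := congrArg (fun f : Perm (Fin k) => f a) h3
    exact this
  · have h1 : e (⟨t, htJ⟩ ^ 3) = 1 := by
      apply Subtype.ext
      rw [map_pow]
      change (e ⟨t, htJ⟩ : Perm (Fin k)) ^ 3 = 1
      rw [het, hvw]
      have : (w⁻¹ * w⁻¹) ^ 3 = ((w ^ 3)⁻¹) ^ 2 := by group
      rw [this, hcube]
      simp
    have h2 : (⟨t, htJ⟩ : J) ^ 3 = 1 := by
      apply e.injective
      rw [h1, map_one]
    exact congrArg Subtype.val h2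

end Cfsg.Agent.H290.UnbA
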