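import Cfsg.Agent.H290.UnbRed
import Cfsg.Agent.S0205
import Cfsg.Agent.S1311
import Cfsg.Agent.S1727
import Cfsg.Agent.Schreier.Assembly
import Cfsg.Agent.OddHalf.Known
import Cfsg.Agent.H289.NoAlt
/-!
S3123 from `NoAlt`.
-/

set_option autoImplicit false

open Subgroup Cfsg

universe u

namespace Cfsg.Agent.H290.UnbEnd

theorem known {L : Type*} [Group L] (h : (∃ p : ℕ, p.Prime ∧ p ≠ 2 ∧ IsLieTypeChar p L) ∨
      (∃ n : ℕ, Odd n ∧ 7 ≤ n ∧ Nonempty (L ≃* ↥(alternatingGroup (Fin n)))) ∨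
      (∃ (F : Type) (_ : Field F) (_ : Fintype F), Fintype.card F = 4 ∧
        Nonempty (L ≃* Matrix.ProjectiveSpecialLinearGroup (Fin 3) F)) ∨
      Spor.IsoHe L) : IsKnownSimple' L := by
  rcases h with ⟨p, _, _, h⟩ | ⟨m', hm', hm7, ⟨eL⟩⟩ | ⟨F, i1, i2, hF4, ⟨eL⟩⟩ | hHe
  · exact OddHalf.Known.known_of_isLie h
  · exact Or.inr (Or.inl ⟨m', by omega, ⟨eL⟩⟩)
  · exact Or.inr (Or.inr (Or.inl ⟨F, i1, i2, 3, by omega, by omega, ⟨eL⟩⟩))
  · refine Or.inr (Or.inr (Or.inr (Or.inr (Or.inr (Or.inr (Or.inr (Or.inr (Or.inr ?_))))))))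
    unfold IsSporadicGroup
    tauto

/-- **S3123 from `NoAlt`.** -/
theorem main (hN : UnbRed.NoAlt.{u}) {G : Type u} [Group G] [Finite G]
    (hF : IsSimpleGroup ↥(generalizedFittingSubgroup G)) (hF' : ¬ IsMulCommutative ↥(generalizedFittingSubgroup G))
    (a x : G) (ha : orderOf a = 2) (hx : orderOf x = 2)
    (J : Subgroup ↥(centralizer ({a} : Set G))) (hJ : IsPComponent 2 J)
    (hJx : ∀ l ∈ J.map (centralizer ({a} : Set G)).subtype, x * l * x⁻¹ ∈ J.map (centralizer ({a} : Set G)).subtype)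
    (hJu : J.map (centralizer ({a} : Set G)).subtype =
      (oddCore ↥J).map ((centralizer ({a} : Set G)).subtype.comp J.subtype) ⊔
        ⁅J.map (centralizer ({a} : Set G)).subtype, centralizerPPrimeCore 2 x ⊓ centralizer ({a} : Set G)⁆)
    (n : ℕ) (hn : 4 ≤ n) (hJA : Nonempty ((↥J ⧸ oddCore ↥J) ≃* ↥(alternatingGroup (Fin (2 * n + 1))))) :
    ∃ m : ℕ, n < m ∧ Nonempty (↥(generalizedFittingSubgroup G) ≃* ↥(alternatingGroup (Fin (2 * m + 1)))) := by
  have hO : oddCore G = ⊥ :=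
    Cit.Assembly.oddCore_eq_bot hF hF' (Cit.Comp.evQ_of_solvable fun D hD => S0205.result hD)
  exact UnbRed.main hN hF hF' a x ha hx (fun D hD => S0205.result hD) (S1727.result hO a ha)
    (fun h => Schreier.Assembly.known _ hF' (known h)) (fun h => S1311.result hF hF' x hx h) J hJ hJx hJu n hn hJA

/-- `NoAlt` (helper289). -/
theorem noAlt : UnbRed.NoAlt.{u} := by
  intro p _ hp L _ _ _ hL τ hτ m hm J hJ ⟨e⟩
  have hf : Finite ↥(FixBN.Reduce.fixSub τ) := inferInstance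
  exact H289.NoAlt.noAlt hp hL τ hτ (MulEquiv.refl _) (by omega) hJ (H289.NoAlt.altCov_of_equiv (by omega) e)

end Cfsg.Agent.H290.UnbEnd
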